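import Cfsg.Agent.Lib.Classical.SympForm

/-!
# Involutions of `Sp_{2m}` in characteristic two: conjugacy from the Gram matrix

For a square-zero self-adjoint `T` with a family `u` with `f(u i, T u j) = S i j`, `S` an involutory symmetric
matrix of size the rank of `T`, the family can be made isotropic; two such data with the same `S`
are conjugate by a symplectic matrix (Witt).
-/

set_option autoImplicit false

namespace Cfsg.Agent.Lib.SpInvol.Core

open Matrix Cfsg Module
open Cfsg.Agent.Lib.Classical.SympForm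

variable {m : ℕ} {F : Type*} [Field F] [CharP F 2]

local notation "V" => (Fin m ⊕ Fin m → F)
local notation "f" => sympForm m F

omit [CharP F 2] in
lemma f_sum_left {ι : Type*} (s : Finset ι) (c : ι → (Fin m ⊕ Fin m → F)) (v : Fin m ⊕ Fin m → F) :
    f (∑ i ∈ s, c i) v = ∑ i ∈ s, f (c i) v := by
  change sympBilin m F (∑ i ∈ s, c i) v = ∑ i ∈ s, sympBilin m F (c i) v
  rw [map_sum, LinearMap.sum_apply]

omit [CharP F 2] in
lemma f_sum_right {ι : Type*} (s : Finset ι) (c : ι → (Fin m ⊕ Fin m → F)) (v : Fin m ⊕ Fin m → F) :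
    f v (∑ i ∈ s, c i) = ∑ i ∈ s, f v (c i) := by
  change sympBilin m F v (∑ i ∈ s, c i) = ∑ i ∈ s, sympBilin m F v (c i)
  rw [map_sum]

omit [CharP F 2] in
lemma f_add_left (u u' v : Fin m ⊕ Fin m → F) : f (u + u') v = f u v + f u' v := by
  change sympBilin m F (u + u') v = sympBilin m F u v + sympBilin m F u' v
  rw [map_add, LinearMap.add_apply]

omit [CharP F 2] in
lemma f_add_right (u v v' : Fin m ⊕ Fin m → F) : f u (v + v') = f u v + f u v' := by
  change sympBilin m F u (v + v') = sympBilin m F u v + sympBilin m F u v'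
  rw [map_add]

omit [CharP F 2] in
lemma f_smul_left (c : F) (u v : Fin m ⊕ Fin m → F) : f (c • u) v = c * f u v := by
  change sympBilin m F (c • u) v = c * sympBilin m F u v
  rw [map_smul, LinearMap.smul_apply, smul_eq_mul]

omit [CharP F 2] in
lemma f_smul_right (c : F) (u v : Fin m ⊕ Fin m → F) : f u (c • v) = c * f u v := by
  change sympBilin m F u (c • v) = c * sympBilin m F u v
  rw [map_smul, smul_eq_mul]

omit [CharP F 2] in
lemma f_self (v : Fin m ⊕ Fin m → F) : f v v = 0 := sympBilin_isAlt v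

lemma f_comm (u v : Fin m ⊕ Fin m → F) : f u v = f v u := by
  have h := f_self (u + v)
  rw [f_add_left, f_add_right, f_add_right, f_self, f_self, zero_add, add_zero] at h
  have h2 : f v u + f v u = 0 := CharTwo.add_self_eq_zero _
  exact (add_right_cancel (h.trans h2.symm))

/-- `T` is self-adjoint. -/
def SA (T : Matrix (Fin m ⊕ Fin m) (Fin m ⊕ Fin m) F) : Prop :=
  ∀ v w : Fin m ⊕ Fin m → F, f (T *ᵥ v) w = f v (T *ᵥ w)

omit [CharP F 2] in
lemma f_T_T {T : Matrix (Fin m ⊕ Fin m) (Fin m ⊕ Fin m) F} (hsa : SA T) (hsq : T * T = 0)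
    (v w : Fin m ⊕ Fin m → F) : f (T *ᵥ v) (T *ᵥ w) = 0 := by
  rw [hsa, mulVec_mulVec, hsq, zero_mulVec]
  simp [sympForm]

/-- Isotropisation of the family. -/
theorem isotropize {κ : Type*} [Fintype κ] [DecidableEq κ] (S : Matrix κ κ F) (hSS : S * S = 1)
    (hSt : Sᵀ = S) {T : Matrix (Fin m ⊕ Fin m) (Fin m ⊕ Fin m) F} (hsa : SA T) (hsq : T * T = 0)
    (u : κ → Fin m ⊕ Fin m → F) (hu : ∀ i j, f (u i) (T *ᵥ u j) = S i j) :
    ∃ u' : κ → Fin m ⊕ Fin m → F, (∀ i j, f (u' i) (T *ᵥ u' j) = S i j) ∧ (∀ i j, f (u' i) (u' j) = 0) := by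
  classical
  let e := Fintype.equivFin κ
  let A : Matrix κ κ F := fun i k => f (u i) (u k)
  let M : Matrix κ κ F := fun i k => if e i < e k then A i k else 0
  let C : Matrix κ κ F := M * S
  let w : κ → Fin m ⊕ Fin m → F := fun j => T *ᵥ u j
  let u' : κ → Fin m ⊕ Fin m → F := fun i => u i + ∑ j, C i j • w j
  have hTw : ∀ j, T *ᵥ w j = 0 := by
    intro j
    simp only [w]
    rw [mulVec_mulVec, hsq, zero_mulVec]
  have hTu' : ∀ i, T *ᵥ u' i = w i := by
    intro i
    simp only [u']
    rw [mulVec_add, mulVec_sum]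
    simp only [mulVec_smul, hTw, smul_zero, Finset.sum_const_zero, add_zero]
    rfl
  have hww : ∀ j l, f (w j) (w l) = 0 := fun j l => f_T_T hsa hsq _ _
  have huw : ∀ i l, f (u i) (w l) = S i l := hu
  have hSsymm : ∀ i l, S i l = S l i := fun i l => congrFun (congrFun hSt l) i
  have hCS : C * S = M := by
    simp only [C]
    rw [Matrix.mul_assoc, hSS, Matrix.mul_one]
  have hCS' : ∀ i k, ∑ j, C i j * S j k = M i k := fun i k => by
    have := congrFun (congrFun hCS i) k
    simpa [Matrix.mul_apply] using this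
  refine ⟨u', ?_, ?_⟩
  · intro i j
    rw [hTu']
    simp only [u']
    rw [f_add_left, f_sum_left, huw]
    simp only [f_smul_left, hww, mul_zero, Finset.sum_const_zero, add_zero]
  · intro i k
    simp only [u']
    rw [f_add_left, f_add_right, f_add_right, f_sum_right, f_sum_left, f_sum_left]
    simp only [f_smul_left, f_smul_right, f_sum_right]
    have h1 : ∑ l, C k l * f (u i) (w l) = M k i := by
      rw [← hCS']
      refine Finset.sum_congr rfl fun l _ => ?_
      rw [huw, hSsymm]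
    have h2 : ∑ j, C i j * f (w j) (u k) = M i k := by
      rw [← hCS']
      refine Finset.sum_congr rfl fun j _ => ?_
      rw [f_comm, huw, hSsymm]
    rw [h1, h2]
    simp only [hww, mul_zero, Finset.sum_const_zero, add_zero]
    have hAii : ∀ i, A i i = 0 := fun i => f_self _
    have hAik : ∀ i k, A i k = A k i := fun i k => f_comm _ _
    have h2' : ∀ x : F, x + x = 0 := fun x => CharTwo.add_self_eq_zero x
    change A i k + M k i + M i k = 0
    simp only [M]
    rcases lt_trichotomy (e i) (e k) with h | h | h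
    · rw [if_pos h, if_neg (not_lt.mpr h.le)]
      rw [add_zero]
      exact h2' _
    · have hik : i = k := e.injective h
      subst hik
      rw [if_neg (lt_irrefl _), hAii]
      simp
    · rw [if_neg (not_lt.mpr h.le), if_pos h, add_zero, hAik k i]
      exact h2' _

omit [CharP F 2] in
/-- An involutory matrix cancels. -/
lemma eq_of_mul_eq {κ : Type*} [Fintype κ] [DecidableEq κ] (S : Matrix κ κ F) (hSS : S * S = 1)
    (c c' : κ → F) (h : ∀ j, ∑ i, c i * S j i = ∑ i, c' i * S j i) : c = c' := by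
  have h1 : S *ᵥ c = S *ᵥ c' := by
    funext j
    have := h j
    simp only [mulVec, dotProduct]
    rw [Finset.sum_congr rfl (fun i _ => mul_comm (S j i) (c i)), this]
    exact Finset.sum_congr rfl (fun i _ => mul_comm _ _)
  have h2 := congrArg (fun x => S *ᵥ x) h1
  simp only [mulVec_mulVec, hSS, one_mulVec] at h2
  exact h2

/-- The main step. -/
theorem exists_sp {κ : Type*} [Fintype κ] [DecidableEq κ] (S : Matrix κ κ F) (hSS : S * S = 1)
    (hSt : Sᵀ = S) {T T' : Matrix (Fin m ⊕ Fin m) (Fin m ⊕ Fin m) F} (hsa : SA T) (hsq : T * T = 0)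
    (hsa' : SA T') (hsq' : T' * T' = 0)
    (u₀ u₀' : κ → Fin m ⊕ Fin m → F) (hu₀ : ∀ i j, f (u₀ i) (T *ᵥ u₀ j) = S i j)
    (hu₀' : ∀ i j, f (u₀' i) (T' *ᵥ u₀' j) = S i j)
    (hr : Fintype.card κ = T.rank) (hr' : Fintype.card κ = T'.rank) :
    ∃ g : Matrix.symplecticGroup (Fin m) F, ∀ v, g.1 *ᵥ (T *ᵥ v) = T' *ᵥ (g.1 *ᵥ v) := by
  classical
  obtain ⟨u, hu, hui⟩ := isotropize S hSS hSt hsa hsq u₀ hu₀
  obtain ⟨u', hu', hui'⟩ := isotropize S hSS hSt hsa' hsq' u₀' hu₀'
  have hSsymm : ∀ i l, S i l = S l i := fun i l => congrFun (congrFun hSt l) i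
  -- generic facts for one datum
  have key : ∀ {T : Matrix (Fin m ⊕ Fin m) (Fin m ⊕ Fin m) F} (_ : SA T) (_ : T * T = 0)
      (u : κ → Fin m ⊕ Fin m → F) (_ : ∀ i j, f (u i) (T *ᵥ u j) = S i j)
      (_ : ∀ i j, f (u i) (u j) = 0),
      LinearIndependent F (Sum.elim u (fun i => T *ᵥ u i)) ∧
      ∀ a b : κ ⊕ κ, f (Sum.elim u (fun i => T *ᵥ u i) a) (Sum.elim u (fun i => T *ᵥ u i) b) =
        Sum.elim (fun i => Sum.elim (fun j => (0 : F)) (fun j => S i j) b)
          (fun i => Sum.elim (fun j => S i j) (fun j => (0 : F)) b) a := by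
    intro T hsa hsq u hu hui
    have hgram : ∀ a b : κ ⊕ κ, f (Sum.elim u (fun i => T *ᵥ u i) a) (Sum.elim u (fun i => T *ᵥ u i) b) =
        Sum.elim (fun i => Sum.elim (fun j => (0 : F)) (fun j => S i j) b)
          (fun i => Sum.elim (fun j => S i j) (fun j => (0 : F)) b) a := by
      rintro (i | i) (j | j)
      · simpa using hui i j
      · simpa using hu i j
      · simp only [Sum.elim_inr, Sum.elim_inl]
        rw [f_comm, hu, hSsymm]
      · simpa using f_T_T hsa hsq _ _
    refine ⟨?_, hgram⟩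
    rw [Fintype.linearIndependent_iff]
    intro c hc
    have hcomp : ∀ j, ∑ a : κ ⊕ κ, c a * f (Sum.elim u (fun i => T *ᵥ u i) a) (T *ᵥ u j) = 0 := by
      intro j
      have := congrArg (fun x => f x (T *ᵥ u j)) hc
      simp only [f_sum_left, f_smul_left] at this
      rw [this]
      simp [sympForm]
    have hcomp' : ∀ j, ∑ a : κ ⊕ κ, c a * f (u j) (Sum.elim u (fun i => T *ᵥ u i) a) = 0 := by
      intro j
      have := congrArg (fun x => f (u j) x) hc
      simp only [f_sum_right, f_smul_right] at this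
      rw [this]
      simp [sympForm]
    have h1 : (fun i => c (Sum.inl i)) = fun _ => 0 := by
      apply eq_of_mul_eq S hSS
      intro j
      have := hcomp j
      rw [Fintype.sum_sum_type] at this
      simp only [Sum.elim_inl, Sum.elim_inr, hu, f_T_T hsa hsq, mul_zero, Finset.sum_const_zero,
        add_zero] at this
      simp only [zero_mul, Finset.sum_const_zero]
      rw [← this]
      exact Finset.sum_congr rfl fun i _ => by rw [hSsymm]
    have h2 : (fun i => c (Sum.inr i)) = fun _ => 0 := by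
      apply eq_of_mul_eq S hSS
      intro j
      have := hcomp' j
      rw [Fintype.sum_sum_type] at this
      simp only [Sum.elim_inl, Sum.elim_inr, hu, hui, mul_zero, Finset.sum_const_zero, zero_add] at this
      simp only [zero_mul, Finset.sum_const_zero]
      exact this
    rintro (i | i)
    · exact congrFun h1 i
    · exact congrFun h2 i
  obtain ⟨hli, hgr⟩ := key hsa hsq u hu hui
  obtain ⟨hli', hgr'⟩ := key hsa' hsq' u' hu' hui'
  obtain ⟨A, -, hA⟩ := exists_closure_family _ _ hli hli' (fun a b => by rw [hgr, hgr'])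
  refine ⟨A, fun v => ?_⟩
  have hpres : ∀ x y, f (A.1 *ᵥ x) (A.1 *ᵥ y) = f x y := (mem_symplecticGroup_iff A.1).mp A.2
  have hAu : ∀ i, A.1 *ᵥ u i = u' i := fun i => hA (Sum.inl i)
  have hAw : ∀ i, A.1 *ᵥ (T *ᵥ u i) = T' *ᵥ u' i := fun i => hA (Sum.inr i)
  -- the images span
  have hspan : ∀ {T : Matrix (Fin m ⊕ Fin m) (Fin m ⊕ Fin m) F} (u : κ → Fin m ⊕ Fin m → F),
      LinearIndependent F (Sum.elim u (fun i => T *ᵥ u i)) → Fintype.card κ = T.rank →
      ∀ x, ∃ c : κ → F, T *ᵥ x = ∑ i, c i • (T *ᵥ u i) := by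
    intro T u hli hr x
    have hliw : LinearIndependent F (fun i => T *ᵥ u i) :=
      hli.comp Sum.inr Sum.inr_injective
    have hle : Submodule.span F (Set.range fun i => T *ᵥ u i) ≤ LinearMap.range T.mulVecLin := by
      rw [Submodule.span_le]
      rintro _ ⟨i, rfl⟩
      exact ⟨u i, rfl⟩
    have heq : Submodule.span F (Set.range fun i => T *ᵥ u i) = LinearMap.range T.mulVecLin := by
      apply Submodule.eq_of_le_of_finrank_eq hle
      rw [finrank_span_eq_card hliw, hr]
      rfl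
    have hx : T *ᵥ x ∈ Submodule.span F (Set.range fun i => T *ᵥ u i) := by
      rw [heq]
      exact ⟨x, rfl⟩
    obtain ⟨c, hc⟩ := (Submodule.mem_span_range_iff_exists_fun F).mp hx
    exact ⟨c, hc.symm⟩
  obtain ⟨c, hc⟩ := hspan u hli hr v
  obtain ⟨c', hc'⟩ := hspan u' hli' hr' (A.1 *ᵥ v)
  have hL : A.1 *ᵥ (T *ᵥ v) = ∑ i, c i • (T' *ᵥ u' i) := by
    rw [hc, mulVec_sum]
    refine Finset.sum_congr rfl fun i _ => ?_
    rw [mulVec_smul, hAw]
  have hcc : c = c' := by
    apply eq_of_mul_eq S hSS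
    intro j
    have h1 : f (u' j) (A.1 *ᵥ (T *ᵥ v)) = f (T *ᵥ u j) v := by
      rw [← hAu, hpres, hsa]
    have h2 : f (u' j) (T' *ᵥ (A.1 *ᵥ v)) = f (T *ᵥ u j) v := by
      rw [← hsa', ← hAw, hpres]
    have h3 : f (u' j) (A.1 *ᵥ (T *ᵥ v)) = ∑ i, c i * S j i := by
      rw [hL, f_sum_right]
      exact Finset.sum_congr rfl fun i _ => by rw [f_smul_right, hu']
    have h4 : f (u' j) (T' *ᵥ (A.1 *ᵥ v)) = ∑ i, c' i * S j i := by
      rw [hc', f_sum_right]
      exact Finset.sum_congr rfl fun i _ => by rw [f_smul_right, hu']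
    rw [← h3, ← h4, h1, h2]
  rw [hL, hc', hcc]

end Cfsg.Agent.Lib.SpInvol.Core
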