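import Mathlib

/-!
# Normal forms of non-degenerate symmetric bilinear forms in characteristic two

* `nf_alt`: an alternating non-degenerate form has a symplectic frame.
* `nf_nonalt`: over a finite field of characteristic two, a non-alternating non-degenerate symmetric
  form has an orthonormal basis.
-/

set_option autoImplicit false

namespace Cfsg.Agent.Lib.SpInvol.NF

open Module

universe u v

variable {F : Type u} [Field F]

/-- The restriction of a bilinear form to a subspace. -/
abbrev resB {V : Type v} [AddCommGroup V] [Module F V] (B : V →ₗ[F] V →ₗ[F] F) (W : Submodule F V) :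
    W →ₗ[F] W →ₗ[F] F :=
  B.compl₁₂ W.subtype W.subtype

@[simp] lemma resB_apply {V : Type v} [AddCommGroup V] [Module F V] (B : V →ₗ[F] V →ₗ[F] F)
    (W : Submodule F V) (x y : W) : resB B W x y = B x y := rfl

theorem nf_alt : ∀ (l : ℕ) (V : Type v) [AddCommGroup V] [Module F V] [FiniteDimensional F V]
    (B : V →ₗ[F] V →ₗ[F] F), (∀ x y, B x y = B y x) → (∀ x, (∀ y, B x y = 0) → x = 0) →
    (∀ x, B x x = 0) → finrank F V = l →
    ∃ (k : ℕ) (e e' : Fin k → V), l = 2 * k ∧ (∀ i j, B (e i) (e j) = 0) ∧ (∀ i j, B (e' i) (e' j) = 0) ∧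
      ∀ i j, B (e i) (e' j) = if i = j then 1 else 0 := by
  intro l
  induction l using Nat.strong_induction_on with
  | _ l ih =>
    intro V _ _ _ B hs hn ha hl
    by_cases hl0 : l = 0
    · exact ⟨0, Fin.elim0, Fin.elim0, by omega, fun i => i.elim0, fun i => i.elim0, fun i => i.elim0⟩
    -- a hyperbolic pair
    have hnt : Nontrivial V := by
      apply Module.nontrivial_of_finrank_pos (R := F)
      omega
    obtain ⟨x, hx⟩ := exists_ne (0 : V)
    obtain ⟨y₀, hy₀⟩ : ∃ y, B x y ≠ 0 := by
      by_contra hcon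
      push Not at hcon
      exact hx (hn x hcon)
    set y := (B x y₀)⁻¹ • y₀ with hy
    have hxy : B x y = 1 := by
      rw [hy, map_smul, smul_eq_mul, inv_mul_cancel₀ hy₀]
    have hyx : B y x = 1 := by rw [hs, hxy]
    let T : V →ₗ[F] F × F := (B x).prod (B y)
    have hTs : Function.Surjective T := by
      rintro ⟨a, b⟩
      refine ⟨a • y + b • x, ?_⟩
      simp [T, ha, hxy, hyx]
    let W : Submodule F V := LinearMap.ker T
    have hW : finrank F W + 2 = l := by
      have h1 := LinearMap.finrank_range_add_finrank_ker T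
      rw [LinearMap.range_eq_top.mpr hTs, finrank_top] at h1
      have h2 : finrank F (F × F) = 2 := by simp
      have h3 : finrank F W = finrank F (LinearMap.ker T) := rfl
      omega
    have hWmem : ∀ {w : V}, w ∈ W ↔ B x w = 0 ∧ B y w = 0 := by
      intro w
      simp [W, T, LinearMap.mem_ker, Prod.ext_iff]
    have hWn : ∀ w : W, (∀ z : W, resB B W w z = 0) → w = 0 := by
      intro w hw
      apply Subtype.ext
      apply hn
      intro v
      have hw1 := hWmem.mp w.2
      have hz : v - B y v • x - B x v • y ∈ W := by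
        rw [hWmem]
        constructor
        · simp [ha, hxy]
        · simp [ha, hyx]
      have h2 := hw ⟨_, hz⟩
      simp only [resB_apply, map_sub, map_smul, smul_eq_mul] at h2
      have hwx : B w x = 0 := by rw [hs]; exact hw1.1
      have hwy : B w y = 0 := by rw [hs]; exact hw1.2
      rw [hwx, hwy] at h2
      simpa using h2
    obtain ⟨k, e, e', hk, h1, h2, h3⟩ := ih (finrank F W) (by omega) W (resB B W)
      (fun a b => hs _ _) hWn (fun a => ha _) rfl
    refine ⟨k + 1, Fin.cons x (fun i => (e i : V)), Fin.cons y (fun i => (e' i : V)), by omega, ?_, ?_, ?_⟩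
    · intro i j
      refine Fin.cases ?_ (fun i => ?_) i <;> refine Fin.cases ?_ (fun j => ?_) j
      · simp [ha]
      · simpa using (hWmem.mp (e j).2).1
      · simp only [Fin.cons_succ, Fin.cons_zero]
        rw [hs]
        exact (hWmem.mp (e i).2).1
      · simpa using h1 i j
    · intro i j
      refine Fin.cases ?_ (fun i => ?_) i <;> refine Fin.cases ?_ (fun j => ?_) j
      · simp [ha]
      · simpa using (hWmem.mp (e' j).2).2
      · simp only [Fin.cons_succ, Fin.cons_zero]
        rw [hs]
        exact (hWmem.mp (e' i).2).2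
      · simpa using h2 i j
    · intro i j
      refine Fin.cases ?_ (fun i => ?_) i <;> refine Fin.cases ?_ (fun j => ?_) j
      · simp [hxy]
      · simp only [Fin.cons_succ, Fin.cons_zero]
        rw [(hWmem.mp (e' j).2).1, if_neg (Fin.succ_ne_zero j).symm]
      · simp only [Fin.cons_succ, Fin.cons_zero]
        rw [hs, (hWmem.mp (e i).2).2, if_neg (Fin.succ_ne_zero i)]
      · simpa using h3 i j

variable [Finite F] [CharP F 2]

lemma sq_surj (x : F) : ∃ y : F, y ^ 2 = x := by
  have hp : Fact (Nat.Prime 2) := ⟨Nat.prime_two⟩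
  have := Finite.surjective_of_injective (frobenius_inj F 2) x
  obtain ⟨y, hy⟩ := this
  exact ⟨y, by simpa [frobenius_def] using hy⟩

omit [Finite F] in
lemma ker_nondeg {V : Type v} [AddCommGroup V] [Module F V] (B : V →ₗ[F] V →ₗ[F] F)
    (hs : ∀ x y, B x y = B y x) (hn : ∀ x, (∀ y, B x y = 0) → x = 0) {v : V} (hv : B v v = 1) :
    ∀ w : LinearMap.ker (B v), (∀ z : LinearMap.ker (B v), resB B _ w z = 0) → w = 0 := by
  intro w hw
  apply Subtype.ext
  apply hn
  intro u
  have hz : u - B v u • v ∈ LinearMap.ker (B v) := by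
    simp [LinearMap.mem_ker, hv]
  have h2 := hw ⟨_, hz⟩
  simp only [resB_apply, map_sub, map_smul, smul_eq_mul] at h2
  have hwv : B w v = 0 := by
    rw [hs]
    exact w.2
  rw [hwv] at h2
  simpa using h2

omit [Finite F] [CharP F 2] in
lemma finrank_ker_add_one {V : Type v} [AddCommGroup V] [Module F V] [FiniteDimensional F V]
    (B : V →ₗ[F] V →ₗ[F] F) {v : V} (hv : B v v = 1) :
    finrank F (LinearMap.ker (B v)) + 1 = finrank F V := by
  have h1 := LinearMap.finrank_range_add_finrank_ker (B v)
  have hs : Function.Surjective (B v) := by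
    intro c
    exact ⟨c • v, by simp [hv]⟩
  rw [LinearMap.range_eq_top.mpr hs, finrank_top, finrank_self] at h1
  omega

theorem nf_nonalt : ∀ (l : ℕ) (V : Type v) [AddCommGroup V] [Module F V] [FiniteDimensional F V]
    (B : V →ₗ[F] V →ₗ[F] F), (∀ x y, B x y = B y x) → (∀ x, (∀ y, B x y = 0) → x = 0) →
    (∃ x, B x x ≠ 0) → finrank F V = l →
    ∃ b : Fin l → V, ∀ i j, B (b i) (b j) = if i = j then 1 else 0 := by
  intro l
  induction l with
  | zero =>
    intro V _ _ _ B hs hn ⟨x, hx⟩ hl
    exfalso
    have : Subsingleton V := Module.finrank_zero_iff.mp hl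
    apply hx
    rw [Subsingleton.elim x 0]
    simp
  | succ n ih =>
    intro V _ _ _ B hs hn ⟨x₀, hx₀⟩ hl
    -- normalise
    obtain ⟨c, hc⟩ := sq_surj ((B x₀ x₀)⁻¹)
    set v₁ := c • x₀ with hv₁
    have hv₁1 : B v₁ v₁ = 1 := by
      simp only [hv₁, map_smul, LinearMap.smul_apply, smul_eq_mul]
      rw [← mul_assoc, ← pow_two, hc, inv_mul_cancel₀ hx₀]
    -- find `v` with non-alternating perp, or `n = 0`
    by_cases hn0 : n = 0
    · subst hn0
      refine ⟨fun _ => v₁, fun i j => ?_⟩
      have : i = j := Fin.ext (by omega)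
      simp [this, hv₁1]
    have hex : ∃ v : V, B v v = 1 ∧ ∃ z ∈ LinearMap.ker (B v), B z z ≠ 0 := by
      by_cases hW : ∃ z ∈ LinearMap.ker (B v₁), B z z ≠ 0
      · exact ⟨v₁, hv₁1, hW⟩
      · push Not at hW
        -- `W₁` is alternating: take a hyperbolic pair in it
        have hdim := finrank_ker_add_one B hv₁1
        have hnt : Nontrivial (LinearMap.ker (B v₁)) := by
          apply Module.nontrivial_of_finrank_pos (R := F)
          omega
        obtain ⟨x, hx⟩ := exists_ne (0 : LinearMap.ker (B v₁))
        obtain ⟨y₀, hy₀⟩ : ∃ y : LinearMap.ker (B v₁), resB B _ x y ≠ 0 := by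
          by_contra hcon
          push Not at hcon
          exact hx (ker_nondeg B hs hn hv₁1 x hcon)
        set d := (B x y₀)⁻¹ with hd
        have hxv : B v₁ (x : V) = 0 := x.2
        have hyv : B v₁ (y₀ : V) = 0 := y₀.2
        have hxx : B (x : V) x = 0 := hW x x.2
        have hxy : B (x : V) (d • (y₀ : V)) = 1 := by
          rw [map_smul, smul_eq_mul, hd]
          exact inv_mul_cancel₀ hy₀
        set y : V := d • (y₀ : V) with hy
        have hyv' : B v₁ y = 0 := by rw [hy, map_smul, hyv, smul_zero]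
        have hyy : B y y = 0 := by
          rw [hy]
          simp only [map_smul, LinearMap.smul_apply, smul_eq_mul]
          rw [hW y₀ y₀.2]
          ring
        have h2 : (1 : F) + 1 = 0 := CharTwo.add_self_eq_zero 1
        refine ⟨v₁ + x, ?_, v₁ + y, ?_, ?_⟩
        · simp only [map_add, LinearMap.add_apply]
          rw [hv₁1, hxv, hs (x : V) v₁, hxv, hxx]
          ring
        · simp only [LinearMap.mem_ker, map_add, LinearMap.add_apply]
          rw [hv₁1, hyv', hs (x : V) v₁, hxv, hxy]
          rw [add_zero, zero_add, h2]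
        · simp only [map_add, LinearMap.add_apply]
          rw [hv₁1, hyv', hs y v₁, hyv', hyy]
          simp
    obtain ⟨v, hv, z, hz, hzz⟩ := hex
    have hdim := finrank_ker_add_one B hv
    obtain ⟨b, hb⟩ := ih (LinearMap.ker (B v)) (resB B _) (fun a b => hs _ _)
      (ker_nondeg B hs hn hv) ⟨⟨z, hz⟩, hzz⟩ (by omega)
    refine ⟨Fin.cons v (fun i => (b i : V)), fun i j => ?_⟩
    refine Fin.cases ?_ (fun i => ?_) i <;> refine Fin.cases ?_ (fun j => ?_) j
    · simp [hv]
    · simp only [Fin.cons_succ, Fin.cons_zero]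
      have : B v (b j : V) = 0 := (b j).2
      rw [this, if_neg (Fin.succ_ne_zero j).symm]
    · simp only [Fin.cons_succ, Fin.cons_zero]
      have : B v (b i : V) = 0 := (b i).2
      rw [hs, this, if_neg (Fin.succ_ne_zero i)]
    · simpa using hb i j

end Cfsg.Agent.Lib.SpInvol.NF
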