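import Cfsg.Agent.Lib.SpInvol.Core
import Cfsg.Agent.Lib.SpInvol.NF
import Cfsg.Agent.Lib.Invol2.Symp

/-!
# Normal data of square-zero self-adjoint operators on the symplectic space
-/

set_option autoImplicit false

namespace Cfsg.Agent.Lib.SpInvol.Data

open Matrix Cfsg Module
open Cfsg.Agent.Lib.Classical.SympForm Cfsg.Agent.Lib.SpInvol.Core Cfsg.Agent.Lib.SpInvol.NF

variable {m : ℕ} {F : Type*} [Field F] [Finite F] [CharP F 2]

local notation "f" => sympForm m F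

/-- The form `f(v, T w)`. -/
noncomputable def betaOf (T : Matrix (Fin m ⊕ Fin m) (Fin m ⊕ Fin m) F) :
    (Fin m ⊕ Fin m → F) →ₗ[F] (Fin m ⊕ Fin m → F) →ₗ[F] F :=
  LinearMap.mk₂ F (fun v w => f v (T *ᵥ w))
    (fun a b c => f_add_left _ _ _)
    (fun c a b => by rw [f_smul_left, smul_eq_mul])
    (fun a b c => by rw [mulVec_add, f_add_right])
    (fun c a b => by rw [mulVec_smul, f_smul_right, smul_eq_mul])

omit [Finite F] [CharP F 2] in
@[simp] lemma betaOf_apply (T : Matrix (Fin m ⊕ Fin m) (Fin m ⊕ Fin m) F) (v w : Fin m ⊕ Fin m → F) :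
    betaOf T v w = f v (T *ᵥ w) := rfl

/-- The complement data: a complement `C` of the kernel of `T` on which `f(v, T w)` is non-degenerate. -/
theorem exists_compl {T : Matrix (Fin m ⊕ Fin m) (Fin m ⊕ Fin m) F} (hsa : SA T) :
    ∃ C : Submodule F (Fin m ⊕ Fin m → F), finrank F C = T.rank ∧
      (∀ x y : C, resB (betaOf T) C x y = resB (betaOf T) C y x) ∧
      (∀ x : C, (∀ y : C, resB (betaOf T) C x y = 0) → x = 0) ∧
      ((∃ v, f v (T *ᵥ v) ≠ 0) → ∃ x : C, resB (betaOf T) C x x ≠ 0) := by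
  let Nl := T.mulVecLin
  obtain ⟨C, hC⟩ := Submodule.exists_isCompl (LinearMap.ker Nl)
  have hdec : ∀ y, ∃ c ∈ C, ∃ k, T *ᵥ k = 0 ∧ y = c + k := by
    intro y
    have hy : y ∈ C ⊔ LinearMap.ker Nl := by
      rw [hC.symm.sup_eq_top]
      exact Submodule.mem_top
    obtain ⟨c, hc, k, hk, rfl⟩ := Submodule.mem_sup.mp hy
    exact ⟨c, hc, k, hk, rfl⟩
  refine ⟨C, ?_, ?_, ?_, ?_⟩
  · have h1 := Submodule.finrank_add_eq_of_isCompl hC
    have h2 := LinearMap.finrank_range_add_finrank_ker Nl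
    have h3 : T.rank = finrank F (LinearMap.range Nl) := rfl
    omega
  · intro x y
    simp only [resB_apply, betaOf_apply]
    rw [← hsa, f_comm]
  · intro x hx
    have h0 : T *ᵥ (x : Fin m ⊕ Fin m → F) = 0 := by
      apply Cfsg.Agent.Lib.Invol2.Symp.symp_nondeg
      intro y
      obtain ⟨c, hc, k, hk, rfl⟩ := hdec y
      rw [hsa, mulVec_add, hk, add_zero]
      exact hx ⟨c, hc⟩
    have hmem : (x : Fin m ⊕ Fin m → F) ∈ LinearMap.ker Nl := h0
    have := Submodule.disjoint_def.mp hC.disjoint _ hmem x.2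
    exact Subtype.ext this
  · rintro ⟨v, hv⟩
    obtain ⟨c, hc, k, hk, rfl⟩ := hdec v
    refine ⟨⟨c, hc⟩, ?_⟩
    simp only [resB_apply, betaOf_apply]
    rw [mulVec_add, hk, add_zero, f_add_left] at hv
    have h1 : f k (T *ᵥ c) = 0 := by
      rw [← hsa, hk]
      simp [sympForm]
    rw [h1, add_zero] at hv
    exact hv

/-- The normal family in the non-alternating case. -/
theorem exists_family_nonalt {T : Matrix (Fin m ⊕ Fin m) (Fin m ⊕ Fin m) F} (hsa : SA T)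
    (h : ∃ v, f v (T *ᵥ v) ≠ 0) :
    ∃ u : Fin T.rank → Fin m ⊕ Fin m → F, ∀ i j, f (u i) (T *ᵥ u j) = (1 : Matrix (Fin T.rank) (Fin T.rank) F) i j := by
  obtain ⟨C, hdim, hs, hn, hna⟩ := exists_compl hsa
  obtain ⟨b, hb⟩ := nf_nonalt (T.rank) C (resB (betaOf T) C) hs hn (hna h) hdim
  refine ⟨fun i => (b i : Fin m ⊕ Fin m → F), fun i j => ?_⟩
  rw [Matrix.one_apply]
  exact hb i j

/-- The normal family in the alternating case. -/
theorem exists_family_alt {T : Matrix (Fin m ⊕ Fin m) (Fin m ⊕ Fin m) F} (hsa : SA T)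
    (h : ∀ v, f v (T *ᵥ v) = 0) :
    ∃ (k : ℕ) (u : Fin k ⊕ Fin k → Fin m ⊕ Fin m → F), T.rank = 2 * k ∧
      ∀ i j, f (u i) (T *ᵥ u j) = (Matrix.fromBlocks 0 1 1 0 : Matrix (Fin k ⊕ Fin k) (Fin k ⊕ Fin k) F) i j := by
  obtain ⟨C, hdim, hs, hn, -⟩ := exists_compl hsa
  obtain ⟨k, e, e', hk, h1, h2, h3⟩ := nf_alt (T.rank) C (resB (betaOf T) C) hs hn (fun x => h x) hdim
  refine ⟨k, Sum.elim (fun i => (e i : Fin m ⊕ Fin m → F)) (fun i => (e' i : Fin m ⊕ Fin m → F)), hk, ?_⟩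
  rintro (i | i) (j | j)
  · simpa using h1 i j
  · simpa [Matrix.one_apply] using h3 i j
  · have := h3 j i
    simp only [resB_apply, betaOf_apply] at this
    have h4 : f (e' i : Fin m ⊕ Fin m → F) (T *ᵥ (e j : Fin m ⊕ Fin m → F)) =
        f (e j : Fin m ⊕ Fin m → F) (T *ᵥ (e' i : Fin m ⊕ Fin m → F)) := by
      rw [← hsa, f_comm]
    simp only [Sum.elim_inr, Sum.elim_inl, Matrix.fromBlocks_apply₂₁, Matrix.one_apply]
    rw [h4, this]
    simp only [eq_comm]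
  · simpa using h2 i j

end Cfsg.Agent.Lib.SpInvol.Data
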