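import Cfsg.Agent.Lib.SpInvol.Data
import Cfsg.Agent.S2167

/-!
# Conjugacy of involutions of `Sp_{2m}` in characteristic two
-/

set_option autoImplicit false

namespace Cfsg.Agent.Lib.SpInvol.Final

open Matrix Cfsg Module
open Cfsg.Agent.Lib.Classical.SympForm Cfsg.Agent.Lib.SpInvol.Core Cfsg.Agent.Lib.SpInvol.Data

variable {m : ℕ} {F : Type*} [Field F]

local notation "f" => sympForm m F

lemma mat_mul_inv (c : Matrix.symplecticGroup (Fin m) F) :
    c.1 * (c⁻¹).1 = 1 := by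
  exact congrArg Subtype.val (mul_inv_cancel c)

lemma mat_inv_mul (c : Matrix.symplecticGroup (Fin m) F) :
    (c⁻¹).1 * c.1 = 1 := by
  exact congrArg Subtype.val (inv_mul_cancel c)

lemma mat_sq (a : Matrix.symplecticGroup (Fin m) F) (ha : orderOf a = 2) : a.1 * a.1 = 1 := by
  have haa : a ^ 2 = 1 := by rw [← ha]; exact pow_orderOf_eq_one a
  rw [pow_two] at haa
  exact congrArg Subtype.val haa

lemma T_sq [CharP F 2] (a : Matrix.symplecticGroup (Fin m) F) (ha : orderOf a = 2) :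
    (a.1 - 1) * (a.1 - 1) = 0 := by
  have hA2 := mat_sq a ha
  have h2 : a.1 + a.1 = 0 := by
    ext i j
    exact CharTwo.add_self_eq_zero _
  have h3 : (1 : Matrix (Fin m ⊕ Fin m) (Fin m ⊕ Fin m) F) + 1 = 0 := by
    ext i j
    exact CharTwo.add_self_eq_zero _
  calc (a.1 - 1) * (a.1 - 1) = a.1 * a.1 + 1 - (a.1 + a.1) := by
        rw [sub_mul, mul_sub, mul_sub]
        simp only [mul_one, one_mul]
        abel
    _ = 0 := by rw [hA2, h2, h3]; simp

lemma f_pres (a : Matrix.symplecticGroup (Fin m) F) (v w : Fin m ⊕ Fin m → F) :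
    f (a.1 *ᵥ v) (a.1 *ᵥ w) = f v w := (mem_symplecticGroup_iff a.1).mp a.2 v w

lemma f_sub_left (u u' v : Fin m ⊕ Fin m → F) : f (u - u') v = f u v - f u' v := by
  change sympBilin m F (u - u') v = sympBilin m F u v - sympBilin m F u' v
  rw [map_sub, LinearMap.sub_apply]

lemma f_sub_right (u v v' : Fin m ⊕ Fin m → F) : f u (v - v') = f u v - f u v' := by
  change sympBilin m F u (v - v') = sympBilin m F u v - sympBilin m F u v'
  rw [map_sub]

lemma T_sa (a : Matrix.symplecticGroup (Fin m) F) (ha : orderOf a = 2) : SA (a.1 - 1) := by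
  intro v w
  rw [sub_mulVec, sub_mulVec, one_mulVec, one_mulVec, f_sub_left, f_sub_right]
  congr 1
  have h : a.1 *ᵥ (a.1 *ᵥ w) = w := by
    rw [mulVec_mulVec, mat_sq a ha, one_mulVec]
  calc f (a.1 *ᵥ v) w = f (a.1 *ᵥ v) (a.1 *ᵥ (a.1 *ᵥ w)) := by rw [h]
    _ = f v (a.1 *ᵥ w) := f_pres a _ _

lemma f_T_eq (a : Matrix.symplecticGroup (Fin m) F) (v : Fin m ⊕ Fin m → F) :
    f v ((a.1 - 1) *ᵥ v) = f v (a.1 *ᵥ v) := by
  rw [sub_mulVec, one_mulVec, f_sub_right, f_self, sub_zero]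

lemma conj_of_T (a b g : Matrix.symplecticGroup (Fin m) F)
    (h : ∀ v, g.1 *ᵥ ((a.1 - 1) *ᵥ v) = (b.1 - 1) *ᵥ (g.1 *ᵥ v)) : IsConj a b := by
  rw [isConj_iff]
  refine ⟨g, ?_⟩
  have h1 : g.1 * a.1 = b.1 * g.1 := by
    apply Matrix.mulVec_injective
    funext v
    have := h v
    simp only [sub_mulVec, one_mulVec, mulVec_sub] at this
    have h2 : g.1 *ᵥ (a.1 *ᵥ v) = b.1 *ᵥ (g.1 *ᵥ v) := sub_left_injective this
    simpa [mulVec_mulVec] using h2
  apply Subtype.ext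
  change g.1 * a.1 * (g⁻¹).1 = b.1
  rw [h1, Matrix.mul_assoc, mat_mul_inv, Matrix.mul_one]

lemma rank_conj (a c : Matrix.symplecticGroup (Fin m) F) :
    ((c * a * c⁻¹).1 - 1).rank = (a.1 - 1).rank := by
  have hc : IsUnit c.1.det := Matrix.isUnit_det_of_right_inverse (mat_mul_inv c)
  have hc' : IsUnit (c⁻¹).1.det := Matrix.isUnit_det_of_right_inverse (mat_inv_mul c)
  have : (c * a * c⁻¹).1 - 1 = c.1 * (a.1 - 1) * (c⁻¹).1 := by
    change c.1 * a.1 * (c⁻¹).1 - 1 = _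
    rw [mul_sub, sub_mul, mul_one, mat_mul_inv]
  rw [this, Matrix.rank_mul_eq_left_of_isUnit_det _ _ hc', Matrix.rank_mul_eq_right_of_isUnit_det _ _ hc]

lemma card_conj (a c : Matrix.symplecticGroup (Fin m) F) :
    Nat.card {v : Fin m ⊕ Fin m → F // f v (a.1 *ᵥ v) = 0} =
      Nat.card {v : Fin m ⊕ Fin m → F // f v ((c * a * c⁻¹).1 *ᵥ v) = 0} := by
  refine Nat.card_congr ?_
  let e : (Fin m ⊕ Fin m → F) ≃ (Fin m ⊕ Fin m → F) :=
    { toFun := fun v => c.1 *ᵥ v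
      invFun := fun w => (c⁻¹).1 *ᵥ w
      left_inv := fun v => by
        change (c⁻¹).1 *ᵥ (c.1 *ᵥ v) = v
        rw [mulVec_mulVec, mat_inv_mul, one_mulVec]
      right_inv := fun v => by
        change c.1 *ᵥ ((c⁻¹).1 *ᵥ v) = v
        rw [mulVec_mulVec, mat_mul_inv, one_mulVec] }
  refine e.subtypeEquiv fun v => ?_
  have h : (c * a * c⁻¹).1 *ᵥ (c.1 *ᵥ v) = c.1 *ᵥ (a.1 *ᵥ v) := by
    change (c.1 * a.1 * (c⁻¹).1) *ᵥ (c.1 *ᵥ v) = _
    rw [mulVec_mulVec, Matrix.mul_assoc, mat_inv_mul, Matrix.mul_one, mulVec_mulVec]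
  change f v (a.1 *ᵥ v) = 0 ↔ f (c.1 *ᵥ v) ((c * a * c⁻¹).1 *ᵥ (c.1 *ᵥ v)) = 0
  rw [h, f_pres]

lemma all_of_card [Fintype F] (b : Matrix.symplecticGroup (Fin m) F)
    (h : Nat.card {v : Fin m ⊕ Fin m → F // f v (b.1 *ᵥ v) = 0} = Nat.card (Fin m ⊕ Fin m → F)) :
    ∀ v, f v (b.1 *ᵥ v) = 0 := by
  have hinj : Function.Injective
      (Subtype.val : {v : Fin m ⊕ Fin m → F // f v (b.1 *ᵥ v) = 0} → (Fin m ⊕ Fin m → F)) :=
    Subtype.val_injective
  have hbij := hinj.bijective_of_nat_card_le h.ge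
  intro v
  obtain ⟨x, rfl⟩ := hbij.2 v
  exact x.2

/-- The converse direction. -/
theorem conj_of_invariants [Fintype F] [CharP F 2] (hm : 2 ≤ m) (a b : Matrix.symplecticGroup (Fin m) F)
    (ha : orderOf a = 2) (hb : orderOf b = 2) (hr : (a.1 - 1).rank = (b.1 - 1).rank)
    (hc : Even (a.1 - 1).rank → Nat.card {v : Fin m ⊕ Fin m → F // f v (a.1 *ᵥ v) = 0} =
        Nat.card {v : Fin m ⊕ Fin m → F // f v (b.1 *ᵥ v) = 0}) : IsConj a b := by
  classical
  have hsa := T_sa a ha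
  have hsb := T_sa b hb
  have hqa := T_sq a ha
  have hqb := T_sq b hb
  have hall : ∀ c : Matrix.symplecticGroup (Fin m) F,
      Nat.card {v : Fin m ⊕ Fin m → F // f v (c.1 *ᵥ v) = 0} = Nat.card (Fin m ⊕ Fin m → F) ↔
        ∀ v, f v (c.1 *ᵥ v) = 0 := by
    intro c
    refine ⟨all_of_card c, fun h => ?_⟩
    refine Nat.card_congr ?_
    exact Equiv.subtypeUnivEquiv h
  by_cases halta : ∀ v, f v (a.1 *ᵥ v) = 0
  · -- alternating for `a`, hence for `b`
    have hev : Even (a.1 - 1).rank := (Cfsg.Agent.S2167.result hm a ha).2 halta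
    have haltb : ∀ v, f v (b.1 *ᵥ v) = 0 := by
      rw [← hall, ← hc hev, hall]
      exact halta
    obtain ⟨k, u, hk, hu⟩ := exists_family_alt hsa (fun v => by rw [f_T_eq]; exact halta v)
    obtain ⟨k', u', hk', hu'⟩ := exists_family_alt hsb (fun v => by rw [f_T_eq]; exact haltb v)
    have hkk : k = k' := by omega
    subst hkk
    let S : Matrix (Fin k ⊕ Fin k) (Fin k ⊕ Fin k) F := Matrix.fromBlocks 0 1 1 0
    have hSS : S * S = 1 := by
      simp only [S]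
      rw [Matrix.fromBlocks_multiply]
      simp
    have hSt : Sᵀ = S := by
      simp only [S]
      rw [Matrix.fromBlocks_transpose]
      simp
    obtain ⟨g, hg⟩ := exists_sp S hSS hSt hsa hqa hsb hqb u u' hu hu'
      (by simp [hk]; omega) (by simp [hk']; omega)
    exact conj_of_T a b g hg
  · have haltb : ¬ ∀ v, f v (b.1 *ᵥ v) = 0 := by
      intro haltb
      have hev : Even (b.1 - 1).rank := (Cfsg.Agent.S2167.result hm b hb).2 haltb
      apply halta
      rw [← hall, hc (hr ▸ hev), hall]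
      exact haltb
    push Not at halta haltb
    obtain ⟨v, hv⟩ := halta
    obtain ⟨w, hw⟩ := haltb
    obtain ⟨u, hu⟩ := exists_family_nonalt hsa ⟨v, by rw [f_T_eq]; exact hv⟩
    obtain ⟨u', hu'⟩ := exists_family_nonalt hsb ⟨w, by rw [f_T_eq]; exact hw⟩
    let e : Fin (a.1 - 1).rank ≃ Fin (b.1 - 1).rank := finCongr hr
    obtain ⟨g, hg⟩ := exists_sp (1 : Matrix (Fin (a.1 - 1).rank) (Fin (a.1 - 1).rank) F) (by simp) (by simp)
      hsa hqa hsb hqb u (fun i => u' (e i)) hu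
      (fun i j => by
        rw [hu']
        simp only [Matrix.one_apply, e.injective.eq_iff])
      (by simp) (by simp [hr])
    exact conj_of_T a b g hg

end Cfsg.Agent.Lib.SpInvol.Final
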